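import Cfsg.Agent.H960.KGV.RowTab
import Cfsg.Agent.H622.KGV.Deg
import Cfsg.Agent.CharDeep.LinearChar
import Cfsg.Agent.H934.OutB
import Cfsg.Agent.S1062
import Cfsg.Agent.S1063
import Cfsg.Agent.S1064
import Cfsg.Agent.S1065
import Cfsg.Agent.S1066
import Cfsg.Agent.S2122
import Cfsg.Agent.S2123
import Cfsg.Agent.S2124
import Cfsg.Agent.S2125
import Cfsg.Agent.S2130
import Cfsg.Agent.S2340
import Cfsg.Agent.S2341

/-!
# The rows `F₄`, `E₆`, `E₇`, `E₈`, `²E₆` of the table of the project k(G) < |V|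
-/

set_option autoImplicit false

namespace Cfsg.Agent.H622.KGV.Exc

open Module Cfsg Cfsg.Lie Cfsg.Agent.H960.KGV

universe u

/-! ### Arithmetic -/

theorem two_mul_le_pow {f : ℕ} (hf : 1 ≤ f) : 2 * f ≤ 2 ^ f := by
  induction f, hf using Nat.le_induction with
  | base => norm_num
  | succ n hn ih =>
    rw [pow_succ]
    have h1 : 2 ≤ 2 ^ n := by
      calc 2 = 2 ^ 1 := by norm_num
        _ ≤ 2 ^ n := Nat.pow_le_pow_right (by norm_num) hn
    omega

theorem two_mul_le {p f : ℕ} (hp : 2 ≤ p) (hf : 1 ≤ f) : 2 * f ≤ p ^ f :=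
  (two_mul_le_pow hf).trans (Nat.pow_le_pow_left hp f)

theorem six_dvd (q : ℕ) : 6 ∣ q * (q ^ 2 - 1) := by
  rcases q with _ | m
  · simp
  · have h1 : (m + 1) ^ 2 - 1 = m * (m + 2) := by
      have : (m + 1) ^ 2 = m * (m + 2) + 1 := by ring
      omega
    rw [h1]
    have h2 := Nat.factorial_dvd_descFactorial (m + 2) 3
    have h3 : (m + 2).descFactorial 3 = (m + 1) * (m * (m + 2)) := by
      simp only [Nat.descFactorial_succ, Nat.descFactorial_zero, Nat.sub_zero, mul_one]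
      have h4 : m + 2 - 1 = m + 1 := by omega
      have h5 : m + 2 - 2 = m := by omega
      rw [h4, h5]
      ring
    rw [h3] at h2
    exact h2

/-- `6` divides the order -/
theorem six_dvd_of {q g N r s : ℕ} (hg : g ∣ 6) (h : g * N = q ^ 2 * (q ^ 2 - 1) * (q ^ 6 - 1) * r) (hs : s = N) :
    6 ∣ s := by
  subst hs
  have h1 : q ^ 2 - 1 ∣ q ^ 6 - 1 := by
    have := Nat.sub_dvd_pow_sub_pow (q ^ 2) 1 3
    rwa [one_pow, ← pow_mul] at this
  obtain ⟨a, ha⟩ := six_dvd q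
  obtain ⟨b, hb⟩ := (six_dvd q).trans (Nat.mul_dvd_mul_left q h1)
  obtain ⟨c, hc⟩ := hg
  have h2 : c * (g * s) = 6 * s := by rw [hc]; ring
  have h3 : 6 * s = 36 * (c * (a * b * r)) := by
    rw [← h2, h]
    calc c * (q ^ 2 * (q ^ 2 - 1) * (q ^ 6 - 1) * r) = c * ((q * (q ^ 2 - 1)) * (q * (q ^ 6 - 1)) * r) := by ring
      _ = _ := by rw [ha, hb]; ring
  exact ⟨c * (a * b * r), by omega⟩

theorem five_le {p n : ℕ} (hp : p.Prime) (h6 : 6 ∣ n) (hn : ¬ p ∣ n) : 5 ≤ p := by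
  by_contra hlt
  push Not at hlt
  have h2 := hp.two_le
  interval_cases p
  · exact hn ((by norm_num : (2 : ℕ) ∣ 6).trans h6)
  · exact hn ((by norm_num : (3 : ℕ) ∣ 6).trans h6)
  · exact absurd hp (by norm_num)

theorem le_two_pow {q : ℕ} (hq : 1 ≤ q) : q ≤ 2 ^ (q - 1) := by
  have := Nat.lt_two_pow_self (n := q - 1)
  omega

theorem pow_le_four {q m c d : ℕ} (hq : 1 ≤ q) (h : m * (q - 1) + c ≤ 2 * (d - 2)) : 2 ^ c * q ^ m ≤ 4 ^ (d - 2) := by
  calc 2 ^ c * q ^ m ≤ 2 ^ c * (2 ^ (q - 1)) ^ m := Nat.mul_le_mul_left _ (Nat.pow_le_pow_left (le_two_pow hq) m)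
    _ = 2 ^ (m * (q - 1) + c) := by rw [← pow_mul, ← pow_add]; ring_nf
    _ ≤ 2 ^ (2 * (d - 2)) := Nat.pow_le_pow_right (by norm_num) h
    _ = _ := by rw [pow_mul]; norm_num

/-! ### The frame -/

variable {T : Type} [Group T]

/-- the inequality from estimates -/
theorem final {p f d b K : ℕ} (h : Sit T p f d) (hb : b ≤ p)
    (hk : Nat.card (ConjClasses T) * Nat.card (Cfsg.Out T) ≤ K) (hd : K ≤ b ^ (d - 2)) :
    2 * f * (p ^ f - 1) * (Nat.card (ConjClasses T) * Nat.card (Cfsg.Out T)) ≤ (p ^ f) ^ d := by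
  have h1 : 2 * f ≤ p ^ f := two_mul_le h.prime.two_le h.f_pos
  have h2 : b ≤ p ^ f := hb.trans (Nat.le_self_pow (by have := h.f_pos; omega) p)
  have h3 : b ^ (d - 2) ≤ (p ^ f) ^ (d - 2) := Nat.pow_le_pow_left h2 _
  have h4 : d = 2 + (d - 2) := by have := h.three_le; omega
  calc 2 * f * (p ^ f - 1) * (Nat.card (ConjClasses T) * Nat.card (Cfsg.Out T))
      ≤ p ^ f * p ^ f * (p ^ f) ^ (d - 2) := by
        refine Nat.mul_le_mul (Nat.mul_le_mul h1 (Nat.sub_le _ _)) ?_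
        exact hk.trans (hd.trans h3)
    _ = (p ^ f) ^ (2 + (d - 2)) := by rw [pow_add, pow_two]
    _ = _ := by rw [← h4]

theorem card_conj_le [Finite T] : Nat.card (ConjClasses T) ≤ Nat.card T :=
  Nat.card_le_card_of_surjective ConjClasses.mk ConjClasses.mk_surjective

/-- the complex representation -/
theorem exists_rep [Finite T] [IsSimpleGroup T] (hT : ¬ IsMulCommutative T) {p f d : ℕ} (h : Sit T p f d) :
    ∃ (n : ℕ) (ρ : Representation ℂ T (Fin n → ℂ)), ρ.IsIrreducible ∧ 2 ≤ n ∧ n < d ^ 2 := by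
  obtain ⟨⟨χ, n, ρ, hρ, rfl⟩, h1, h2⟩ := h.adj
  have h3 : ρ.character 1 = n := by
    rw [Representation.char_one, finrank_fin_fun]
  have h4 : Cfsg.charDegree (fun g => ρ.character g) = n := by
    show ⌊(ρ.character 1).re⌋₊ = n
    rw [h3]
    simp
  have h5 : n ≤ d ^ 2 - 1 := by
    rw [← h4]
    exact h2
  have hd : 0 < d ^ 2 := by have := h.three_le; positivity
  refine ⟨n, ρ, hρ, ?_, by omega⟩
  by_contra hlt
  have hn0 : n ≠ 0 := by
    rintro rfl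
    have hsub : Subsingleton (Subrepresentation ρ) := by
      refine ⟨fun a b => ?_⟩
      apply Subrepresentation.toSubmodule_injective
      exact Subsingleton.elim _ _
    have hnt : Nontrivial (Subrepresentation ρ) := hρ.toNontrivial
    exact not_subsingleton (Subrepresentation ρ) hsub
  have hn1 : n = 1 := by omega
  subst hn1
  apply h1
  funext g
  -- a linear character of a simple nonabelian group is trivial
  have hcomm : ∀ A B : Module.End ℂ (Fin 1 → ℂ), A * B = B * A := by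
    intro A B
    have key : ∀ A : Module.End ℂ (Fin 1 → ℂ), ∀ v, A v = (A (fun _ => 1) 0) • v := by
      intro A v
      have hv : v = v 0 • (fun _ => (1 : ℂ)) := by
        funext i
        rw [Subsingleton.elim i 0]
        simp
      conv_lhs => rw [hv]
      rw [map_smul]
      funext i
      rw [Subsingleton.elim i 0]
      simp [mul_comm]
    apply LinearMap.ext
    intro v
    rw [Module.End.mul_apply, Module.End.mul_apply, key A v, key B v, map_smul, map_smul, key A v, key B v,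
      smul_comm]
  let f : T →* (Module.End ℂ (Fin 1 → ℂ))ˣ := MonoidHom.toHomUnits ρ
  have hf : f.ker = ⊤ := by
    rcases (inferInstance : f.ker.Normal).eq_bot_or_eq_top with hb | ht
    · exfalso
      apply hT
      refine ⟨⟨fun a b => ?_⟩⟩
      apply (MonoidHom.ker_eq_bot_iff f).1 hb
      rw [map_mul, map_mul]
      exact Units.ext (hcomm _ _)
    · exact ht
  have hg : g ∈ f.ker := by rw [hf]; trivial
  have hg1 : ρ g = 1 := congrArg Units.val ((MonoidHom.mem_ker).1 hg)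
  show LinearMap.trace ℂ _ (ρ g) = 1
  rw [hg1, LinearMap.trace_one, finrank_fin_fun, Nat.cast_one]

/-- transport -/
theorem exists_rep' [Finite T] [IsSimpleGroup T] (hT : ¬ IsMulCommutative T) {p f d : ℕ} (h : Sit T p f d)
    {G : Type*} [Group G] (e : T ≃* G) :
    ∃ (n : ℕ) (ρ : Representation ℂ G (Fin n → ℂ)), ρ.IsIrreducible ∧ 2 ≤ n ∧ n < d ^ 2 := by
  obtain ⟨n, ρ, hρ, h2, h3⟩ := exists_rep hT h
  exact ⟨n, ρ.comp e.symm.toMonoidHom,
    Cfsg.Agent.CharDeep.LinearChar.isIrreducible_comp e.symm.toMonoidHom e.symm.surjective ρ hρ, h2, h3⟩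

theorem simple_of {T : Type} [Group T] [IsSimpleGroup T] {G : Type*} [Group G] (e : T ≃* G) : IsSimpleGroup G :=
  have : Nontrivial G := e.symm.toEquiv.nontrivial
  IsSimpleGroup.isSimpleGroup_of_surjective e.toMonoidHom e.surjective

theorem exists_pf (F : Type u) [Field F] [Fintype F] :
    ∃ p f : ℕ, p.Prime ∧ 1 ≤ f ∧ CharP F p ∧ Fintype.card F = p ^ f := by
  obtain ⟨n, hp, h⟩ := FiniteField.card F (ringChar F)
  exact ⟨ringChar F, n, hp, n.pos, inferInstance, h⟩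

/-! ### The rows -/

theorem out_eq {G : Type*} [Group G] (e : T ≃* G) :
    Nat.card (Cfsg.Out T) = Nat.card (Cfsg.Out G) := Cfsg.Agent.H934.OutB.card_out_congr e

theorem rowE8 : RowOf (fun T _ => Lie.IsoE8 T) := by
  intro T _ _ _ hT hiso p f d h
  obtain ⟨F, _, _, ⟨e⟩⟩ := hiso
  obtain ⟨r, s, hr, hs, _, hF⟩ := exists_pf F
  have := Fact.mk hr
  have hsim := simple_of e
  set q := Fintype.card F with hq
  have hq2 : 2 ≤ q := Fintype.one_lt_card
  have hcard : Nat.card T = Nat.card ↥(chevE8.group F) := Nat.card_congr e.toEquiv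
  have hN := Cfsg.Agent.S1065.result (F := F) hq.symm
  have hout := out_eq e
  rw [Cfsg.Agent.S2125.result r s hF] at hout
  -- the prime
  have h5 : 5 ≤ p := by
    refine five_le h.prime (six_dvd_of (g := 1) (q := q) (N := Nat.card ↥(chevE8.group F)) (r := q ^ 118 *
      ((q ^ 8 - 1) * (q ^ 12 - 1) * (q ^ 14 - 1) * ((q ^ 18 - 1) / (q ^ 6 - 1)) * (q ^ 20 - 1) * (q ^ 24 - 1) *
        (q ^ 30 - 1))) (one_dvd _) ?_ hcard) h.coprime
    have h1 : q ^ 6 - 1 ∣ q ^ 18 - 1 := by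
      have := Nat.sub_dvd_pow_sub_pow (q ^ 6) 1 3
      rwa [one_pow, ← pow_mul] at this
    rw [one_mul, hN]
    calc q ^ 120 * (q ^ 2 - 1) * (q ^ 8 - 1) * (q ^ 12 - 1) * (q ^ 14 - 1) * (q ^ 18 - 1) * (q ^ 20 - 1) *
          (q ^ 24 - 1) * (q ^ 30 - 1)
        = q ^ 2 * (q ^ 2 - 1) * (q ^ 118 * ((q ^ 8 - 1) * (q ^ 12 - 1) * (q ^ 14 - 1) * (q ^ 18 - 1) *
          (q ^ 20 - 1) * (q ^ 24 - 1) * (q ^ 30 - 1))) := by ring
      _ = q ^ 2 * (q ^ 2 - 1) * (q ^ 118 * ((q ^ 8 - 1) * (q ^ 12 - 1) * (q ^ 14 - 1) *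
          ((q ^ 6 - 1) * ((q ^ 18 - 1) / (q ^ 6 - 1))) * (q ^ 20 - 1) * (q ^ 24 - 1) * (q ^ 30 - 1))) := by
        rw [Nat.mul_div_cancel' h1]
      _ = _ := by ring
  -- the degree
  obtain ⟨n, ρ, hρ, hn2, hnd⟩ := exists_rep' hT h e
  have hdeg := Deg.e8 hsim ρ (Cfsg.Agent.H121.Chr.exists_ne_one ρ hρ hn2)
  rw [finrank_fin_fun, ← hq] at hdeg
  have hdeg1 : q ^ 28 ≤ n := by
    refine (Nat.pow_le_pow_iff_left (n := 2) (by norm_num)).1 ?_
    calc (q ^ 28) ^ 2 = q ^ 56 := by ring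
      _ ≤ _ := hdeg
  have hd : q ^ 14 < d := by
    refine (Nat.pow_lt_pow_iff_left (n := 2) (by norm_num)).1 ?_
    calc (q ^ 14) ^ 2 = q ^ 28 := by ring
      _ < d ^ 2 := lt_of_le_of_lt hdeg1 hnd
  refine final (b := 4) (K := 2 ^ 0 * q ^ 249) h (by omega) ?_ ?_
  · rw [hout]
    have h1 : Nat.card T ≤ q ^ 248 := by
      rw [hcard, hN]
      calc q ^ 120 * (q ^ 2 - 1) * (q ^ 8 - 1) * (q ^ 12 - 1) * (q ^ 14 - 1) * (q ^ 18 - 1) * (q ^ 20 - 1) *
            (q ^ 24 - 1) * (q ^ 30 - 1)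
          ≤ q ^ 120 * q ^ 2 * q ^ 8 * q ^ 12 * q ^ 14 * q ^ 18 * q ^ 20 * q ^ 24 * q ^ 30 := by
            gcongr <;> exact Nat.sub_le _ _
        _ = q ^ 248 := by ring
    have h2 : s ≤ q := by
      rw [hF]
      exact (Nat.lt_pow_self hr.one_lt).le
    calc Nat.card (ConjClasses T) * s ≤ q ^ 248 * q := Nat.mul_le_mul (card_conj_le.trans h1) h2
      _ = 2 ^ 0 * q ^ 249 := by ring
  · refine pow_le_four (by omega) ?_
    obtain ⟨m, hm⟩ : ∃ m, q = m + 2 := ⟨q - 2, by omega⟩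
    have h1 : 249 * (m + 1) + 2 ≤ 2 * (m + 2) ^ 14 := by
      have : (0 : ℤ) ≤ 2 * (m + 2) ^ 14 - (249 * (m + 1) + 2) := by
        ring_nf
        positivity
      have h3 : (249 * (m + 1) + 2 : ℤ) ≤ 2 * (m + 2) ^ 14 := by linarith
      exact_mod_cast h3
    rw [hm] at hd ⊢
    omega

theorem rowE7 : RowOf (fun T _ => Lie.IsoE7 T) := by
  intro T _ _ _ hT hiso p f d h
  obtain ⟨F, _, _, ⟨e⟩⟩ := hiso
  obtain ⟨r, s, hr, hs, _, hF⟩ := exists_pf F
  have := Fact.mk hr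
  have hsim := simple_of e
  set q := Fintype.card F with hq
  have hq2 : 2 ≤ q := Fintype.one_lt_card
  have hcard : Nat.card T = Nat.card ↥(chevE7.group F) := Nat.card_congr e.toEquiv
  have hN := Cfsg.Agent.S1064.result (F := F) hq.symm
  have hout := out_eq e
  rw [Cfsg.Agent.S2124.result r s hF] at hout
  -- the prime
  have h5 : 5 ≤ p := by
    refine five_le h.prime (six_dvd_of (g := Nat.gcd 2 (q - 1)) (q := q) (N := Nat.card ↥(chevE7.group F))
      (r := q ^ 61 * ((q ^ 8 - 1) * (q ^ 10 - 1) * (q ^ 12 - 1) * (q ^ 14 - 1) * (q ^ 18 - 1)))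
      ((Nat.gcd_dvd_left _ _).trans (by norm_num)) ?_ hcard) h.coprime
    rw [hN]
    ring
  -- the degree
  obtain ⟨n, ρ, hρ, hn2, hnd⟩ := exists_rep' hT h e
  have hdeg := Deg.e7 hsim ρ (Cfsg.Agent.H121.Chr.exists_ne_one ρ hρ hn2)
  rw [finrank_fin_fun, ← hq] at hdeg
  have hdeg1 : q ^ 16 ≤ n := by
    refine (Nat.pow_le_pow_iff_left (n := 2) (by norm_num)).1 ?_
    calc (q ^ 16) ^ 2 = q ^ 32 := by ring
      _ ≤ _ := hdeg
  have hd : q ^ 8 < d := by
    refine (Nat.pow_lt_pow_iff_left (n := 2) (by norm_num)).1 ?_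
    calc (q ^ 8) ^ 2 = q ^ 16 := by ring
      _ < d ^ 2 := lt_of_le_of_lt hdeg1 hnd
  refine final (b := 4) (K := 2 ^ 0 * q ^ 134) h (by omega) ?_ ?_
  · rw [hout]
    have h1 : Nat.card T ≤ q ^ 133 := by
      rw [hcard]
      refine (Nat.le_mul_of_pos_left _ (Nat.gcd_pos_of_pos_left (q - 1) (by norm_num : 0 < 2))).trans ?_
      rw [hN]
      calc q ^ 63 * (q ^ 2 - 1) * (q ^ 6 - 1) * (q ^ 8 - 1) * (q ^ 10 - 1) * (q ^ 12 - 1) * (q ^ 14 - 1) *
            (q ^ 18 - 1)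
          ≤ q ^ 63 * q ^ 2 * q ^ 6 * q ^ 8 * q ^ 10 * q ^ 12 * q ^ 14 * q ^ 18 := by
            gcongr <;> exact Nat.sub_le _ _
        _ = q ^ 133 := by ring
    have h2 : Nat.gcd 2 (r ^ s - 1) * s ≤ q := by
      rw [hF]
      refine le_trans ?_ (two_mul_le hr.two_le hs)
      exact Nat.mul_le_mul_right _ (Nat.le_of_dvd (by norm_num) (Nat.gcd_dvd_left _ _))
    calc Nat.card (ConjClasses T) * (Nat.gcd 2 (r ^ s - 1) * s) ≤ q ^ 133 * q :=
          Nat.mul_le_mul (card_conj_le.trans h1) h2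
      _ = 2 ^ 0 * q ^ 134 := by ring
  · refine pow_le_four (by omega) ?_
    obtain ⟨m, hm⟩ : ∃ m, q = m + 2 := ⟨q - 2, by omega⟩
    have h1 : 134 * (m + 1) + 2 ≤ 2 * (m + 2) ^ 8 := by
      have : (0 : ℤ) ≤ 2 * (m + 2) ^ 8 - (134 * (m + 1) + 2) := by
        ring_nf
        positivity
      have h3 : (134 * (m + 1) + 2 : ℤ) ≤ 2 * (m + 2) ^ 8 := by linarith
      exact_mod_cast h3
    rw [hm] at hd ⊢
    omega

theorem rowE6 : RowOf (fun T _ => Lie.IsoChevE6 T) := by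
  intro T _ _ _ hT hiso p f d h
  obtain ⟨F, _, _, ⟨e⟩⟩ := hiso
  obtain ⟨r, s, hr, hs, _, hF⟩ := exists_pf F
  have := Fact.mk hr
  have hsim := simple_of e
  set q := Fintype.card F with hq
  have hq2 : 2 ≤ q := Fintype.one_lt_card
  have hcard : Nat.card T = Nat.card ↥(chevE6.group F) := Nat.card_congr e.toEquiv
  have hN := Cfsg.Agent.S1063.result (F := F) hq.symm
  have hout := out_eq e
  rw [Cfsg.Agent.S2123.result r s hF] at hout
  -- the prime
  have h5 : 5 ≤ p := by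
    refine five_le h.prime (six_dvd_of (g := Nat.gcd 3 (q - 1)) (q := q) (N := Nat.card ↥(chevE6.group F))
      (r := q ^ 34 * ((q ^ 5 - 1) * (q ^ 8 - 1) * (q ^ 9 - 1) * (q ^ 12 - 1)))
      ((Nat.gcd_dvd_left _ _).trans (by norm_num)) ?_ hcard) h.coprime
    rw [hN]
    ring
  -- the degree
  obtain ⟨n, ρ, hρ, hn2, hnd⟩ := exists_rep' hT h e
  have hdeg := Cfsg.Agent.S2340.result (F := F) n ρ hρ hn2
  rw [← hq] at hdeg
  have hdeg1 : q ^ 11 ≤ n := by
    refine le_trans ?_ hdeg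
    calc q ^ 11 = q * q ^ 6 * q ^ 4 := by ring
      _ ≤ q * (q ^ 6 + q ^ 3 + 1) * (q ^ 4 + 1) := by
        gcongr
        · omega
        · omega
  have hd : q ^ 11 < d ^ 2 := lt_of_le_of_lt hdeg1 hnd
  refine final (b := 4) (K := 2 ^ 2 * q ^ 79) h (by omega) ?_ ?_
  · rw [hout]
    have h1 : Nat.card T ≤ q ^ 78 := by
      rw [hcard]
      refine (Nat.le_mul_of_pos_left _ (Nat.gcd_pos_of_pos_left (q - 1) (by norm_num : 0 < 3))).trans ?_
      rw [hN]
      calc q ^ 36 * (q ^ 2 - 1) * (q ^ 5 - 1) * (q ^ 6 - 1) * (q ^ 8 - 1) * (q ^ 9 - 1) * (q ^ 12 - 1)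
          ≤ q ^ 36 * q ^ 2 * q ^ 5 * q ^ 6 * q ^ 8 * q ^ 9 * q ^ 12 := by
            gcongr <;> exact Nat.sub_le _ _
        _ = q ^ 78 := by ring
    have h2 : 2 * Nat.gcd 3 (r ^ s - 1) * s ≤ 4 * q := by
      rw [hF]
      have h3 : Nat.gcd 3 (r ^ s - 1) ≤ 3 := Nat.le_of_dvd (by norm_num) (Nat.gcd_dvd_left _ _)
      have h4 := two_mul_le hr.two_le hs
      calc 2 * Nat.gcd 3 (r ^ s - 1) * s ≤ 2 * 3 * s := by gcongr
        _ = 3 * (2 * s) := by ring
        _ ≤ 4 * r ^ s := by omega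
    calc Nat.card (ConjClasses T) * (2 * Nat.gcd 3 (r ^ s - 1) * s) ≤ q ^ 78 * (4 * q) :=
          Nat.mul_le_mul (card_conj_le.trans h1) h2
      _ = 2 ^ 2 * q ^ 79 := by ring
  · refine pow_le_four (by omega) ?_
    obtain ⟨m, hm⟩ : ∃ m, q = m + 2 := ⟨q - 2, by omega⟩
    have h1 : (79 * (m + 1) + 6) ^ 2 ≤ 4 * (m + 2) ^ 11 := by
      have : (0 : ℤ) ≤ 4 * (m + 2) ^ 11 - (79 * (m + 1) + 6) ^ 2 := by
        ring_nf
        positivity
      have h3 : ((79 * (m + 1) + 6) ^ 2 : ℤ) ≤ 4 * (m + 2) ^ 11 := by linarith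
      exact_mod_cast h3
    rw [hm] at hd ⊢
    have h2 : 79 * (m + 1) + 6 < 2 * d := by
      refine (Nat.pow_lt_pow_iff_left (n := 2) (by norm_num)).1 ?_
      calc (79 * (m + 1) + 6) ^ 2 ≤ 4 * (m + 2) ^ 11 := h1
        _ < 4 * d ^ 2 := by omega
        _ = _ := by ring
    omega

theorem rowE6T : RowOf (fun T _ => Lie.Iso2E6 T) := by
  intro T _ _ _ hT hiso p f d h
  obtain ⟨K, _, _, q, hqp, hK, ⟨e⟩⟩ := hiso
  have hsim := simple_of e
  obtain ⟨r, s, hr, hs, hF⟩ : ∃ r s : ℕ, r.Prime ∧ 1 ≤ s ∧ q = r ^ s := by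
    obtain ⟨r, s, hr, hs, hrs⟩ := hqp
    exact ⟨r, s, Nat.prime_iff.2 hr, hs, hrs.symm⟩
  have := Fact.mk hr
  have hK2 : Fintype.card K = r ^ (2 * s) := by rw [hK, hF, ← pow_mul, mul_comm]
  have : CharP K r := charP_of_card_eq_prime_pow hK2
  have hq2 : 2 ≤ q := hqp.one_lt
  have hcard : Nat.card T = Nat.card ↥(twistedE6 K q) := Nat.card_congr e.toEquiv
  have hN := Cfsg.Agent.S1066.result (K := K) hqp hK
  have hout : Nat.card (Cfsg.Out T) = 2 * Nat.gcd 3 (r ^ s + 1) * s := by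
    rw [out_eq e, hF]
    exact Cfsg.Agent.S2130.result r s hK2 hs
  -- the prime
  have h5 : 5 ≤ p := by
    refine five_le h.prime (six_dvd_of (g := Nat.gcd 3 (q + 1)) (q := q) (N := Nat.card ↥(twistedE6 K q))
      (r := q ^ 34 * ((q ^ 5 + 1) * (q ^ 8 - 1) * (q ^ 9 + 1) * (q ^ 12 - 1)))
      ((Nat.gcd_dvd_left _ _).trans (by norm_num)) ?_ hcard) h.coprime
    rw [hN]
    ring
  -- the degree
  obtain ⟨n, ρ, hρ, hn2, hnd⟩ := exists_rep' hT h e
  have hdeg := Cfsg.Agent.S2341.result (K := K) q hqp hK n ρ hρ hn2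
  have hd0 : q * (q ^ 6 - q ^ 3 + 1) * (q ^ 4 + 1) < d ^ 2 := lt_of_le_of_lt hdeg hnd
  have h8 : 7 * q ^ 6 ≤ 8 * (q ^ 6 - q ^ 3 + 1) := by
    have h1 : 8 ≤ q ^ 3 := by
      calc 8 = 2 ^ 3 := by norm_num
        _ ≤ q ^ 3 := Nat.pow_le_pow_left hq2 3
    have h2 : 8 * q ^ 3 ≤ q ^ 6 := by
      calc 8 * q ^ 3 ≤ q ^ 3 * q ^ 3 := Nat.mul_le_mul_right _ h1
        _ = q ^ 6 := by ring
    omega
  have hd : 7 * q ^ 7 * (q ^ 4 + 1) < 8 * d ^ 2 := by
    calc 7 * q ^ 7 * (q ^ 4 + 1) = q * (7 * q ^ 6) * (q ^ 4 + 1) := by ring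
      _ ≤ q * (8 * (q ^ 6 - q ^ 3 + 1)) * (q ^ 4 + 1) := by gcongr
      _ = 8 * (q * (q ^ 6 - q ^ 3 + 1) * (q ^ 4 + 1)) := by ring
      _ < 8 * d ^ 2 := by omega
  refine final (b := 4) (K := 2 ^ 2 * q ^ 79) h (by omega) ?_ ?_
  · rw [hout]
    have hk : ∀ a b : ℕ, a ≤ b → (q ^ b + 1) * (q ^ a - 1) ≤ q ^ (b + a) := by
      intro a b hab
      have h3 : q ^ a ≤ q ^ b := Nat.pow_le_pow_right (by omega) hab
      have h4 : 0 < q ^ a := by positivity
      obtain ⟨x, hx⟩ : ∃ x, q ^ a = x + 1 := ⟨q ^ a - 1, by omega⟩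
      rw [pow_add, hx, Nat.add_sub_cancel]
      have h5 : x + 1 ≤ q ^ b := by omega
      calc (q ^ b + 1) * x = q ^ b * x + x := by ring
        _ ≤ q ^ b * x + q ^ b := by omega
        _ = _ := by ring
    have h1 : Nat.card T ≤ q ^ 78 := by
      rw [hcard]
      refine (Nat.le_mul_of_pos_left _ (Nat.gcd_pos_of_pos_left (q + 1) (by norm_num : 0 < 3))).trans ?_
      rw [hN]
      calc q ^ 36 * (q ^ 2 - 1) * (q ^ 5 + 1) * (q ^ 6 - 1) * (q ^ 8 - 1) * (q ^ 9 + 1) * (q ^ 12 - 1)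
          = q ^ 36 * ((q ^ 5 + 1) * (q ^ 2 - 1)) * ((q ^ 9 + 1) * (q ^ 6 - 1)) * (q ^ 8 - 1) * (q ^ 12 - 1) := by ring
        _ ≤ q ^ 36 * q ^ (5 + 2) * q ^ (9 + 6) * q ^ 8 * q ^ 12 := by
            gcongr
            · exact hk 2 5 (by norm_num)
            · exact hk 6 9 (by norm_num)
            · exact Nat.sub_le _ _
            · exact Nat.sub_le _ _
        _ = q ^ 78 := by ring
    have h2 : 2 * Nat.gcd 3 (r ^ s + 1) * s ≤ 4 * q := by
      rw [hF]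
      have h3 : Nat.gcd 3 (r ^ s + 1) ≤ 3 := Nat.le_of_dvd (by norm_num) (Nat.gcd_dvd_left _ _)
      have h4 := two_mul_le hr.two_le hs
      calc 2 * Nat.gcd 3 (r ^ s + 1) * s ≤ 2 * 3 * s := by gcongr
        _ = 3 * (2 * s) := by ring
        _ ≤ 4 * r ^ s := by omega
    calc Nat.card (ConjClasses T) * (2 * Nat.gcd 3 (r ^ s + 1) * s) ≤ q ^ 78 * (4 * q) :=
          Nat.mul_le_mul (card_conj_le.trans h1) h2
      _ = 2 ^ 2 * q ^ 79 := by ring
  · refine pow_le_four (by omega) ?_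
    obtain ⟨m, hm⟩ : ∃ m, q = m + 2 := ⟨q - 2, by omega⟩
    have h1 : 2 * (79 * (m + 1) + 6) ^ 2 ≤ 7 * (m + 2) ^ 7 * ((m + 2) ^ 4 + 1) := by
      have : (0 : ℤ) ≤ 7 * (m + 2) ^ 7 * ((m + 2) ^ 4 + 1) - 2 * (79 * (m + 1) + 6) ^ 2 := by
        ring_nf
        positivity
      have h3 : (2 * (79 * (m + 1) + 6) ^ 2 : ℤ) ≤ 7 * (m + 2) ^ 7 * ((m + 2) ^ 4 + 1) := by linarith
      exact_mod_cast h3
    rw [hm] at hd ⊢
    have h2 : 79 * (m + 1) + 6 < 2 * d := by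
      refine (Nat.pow_lt_pow_iff_left (n := 2) (by norm_num)).1 ?_
      have h3 : 2 * (79 * (m + 1) + 6) ^ 2 < 8 * d ^ 2 := lt_of_le_of_lt h1 hd
      calc (79 * (m + 1) + 6) ^ 2 < 4 * d ^ 2 := by omega
        _ = _ := by ring
    omega

theorem rowF4 : RowOf (fun T _ => Lie.IsoF4 T) := by
  intro T _ _ _ hT hiso p f d h
  obtain ⟨F, _, _, ⟨e⟩⟩ := hiso
  obtain ⟨r, s, hr, hs, hchar, hF⟩ := exists_pf F
  have := Fact.mk hr
  have hsim := simple_of e
  set q := Fintype.card F with hq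
  have hq2 : 2 ≤ q := Fintype.one_lt_card
  have hcard : Nat.card T = Nat.card ↥(chevF4.group F) := Nat.card_congr e.toEquiv
  have hN := Cfsg.Agent.S1062.result (F := F) hq.symm
  have hout := out_eq e
  rw [Cfsg.Agent.S2122.result r s hF] at hout
  -- the prime
  have h5 : 5 ≤ p := by
    refine five_le h.prime (six_dvd_of (g := 1) (q := q) (N := Nat.card ↥(chevF4.group F))
      (r := q ^ 22 * ((q ^ 8 - 1) * (q ^ 12 - 1))) (one_dvd _) ?_ hcard) h.coprime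
    rw [one_mul, hN]
    ring
  -- the bound for `k`
  have hk : Nat.card (ConjClasses T) * Nat.card (Cfsg.Out T) ≤ q ^ 53 := by
    rw [hout]
    have h1 : Nat.card T ≤ q ^ 52 := by
      rw [hcard, hN]
      calc q ^ 24 * (q ^ 2 - 1) * (q ^ 6 - 1) * (q ^ 8 - 1) * (q ^ 12 - 1)
          ≤ q ^ 24 * q ^ 2 * q ^ 6 * q ^ 8 * q ^ 12 := by
            gcongr <;> exact Nat.sub_le _ _
        _ = q ^ 52 := by ring
    have h2 : Nat.gcd 2 r * s ≤ q := by
      rw [hF]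
      refine le_trans ?_ (two_mul_le hr.two_le hs)
      exact Nat.mul_le_mul_right _ (Nat.le_of_dvd (by norm_num) (Nat.gcd_dvd_left _ _))
    calc Nat.card (ConjClasses T) * (Nat.gcd 2 r * s) ≤ q ^ 52 * q :=
          Nat.mul_le_mul (card_conj_le.trans h1) h2
      _ = q ^ 53 := by ring
  -- the degree
  obtain ⟨n, ρ, hρ, hn2, hnd⟩ := exists_rep' hT h e
  have hne := Cfsg.Agent.H121.Chr.exists_ne_one ρ hρ hn2
  have hdeg : q ^ 7 ≤ n ∧ (q = 2 → 448 ≤ n) := by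
    rcases hr.eq_two_or_odd' with h2 | h2
    · subst h2
      have h3 := Deg.f4_even hsim ρ hne
      rw [finrank_fin_fun, ← hq] at h3
      constructor
      · have h4 : 2 ≤ q ^ 3 - 1 := by
          have : 2 ^ 3 ≤ q ^ 3 := Nat.pow_le_pow_left hq2 3
          omega
        have h6 : q ^ 7 * 2 ≤ 2 * n := le_trans (Nat.mul_le_mul_left _ h4) h3
        omega
      · intro h4
        rw [h4] at h3
        norm_num at h3
        omega
    · have h3 : (2 : F) ≠ 0 := by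
        intro h0
        have h4 : ((2 : ℕ) : F) = 0 := by exact_mod_cast h0
        have h6 : r ∣ 2 := (CharP.cast_eq_zero_iff F r 2).1 h4
        have h7 : r = 2 := (Nat.prime_dvd_prime_iff_eq hr Nat.prime_two).1 h6
        rw [h7] at h2
        exact absurd h2 (by decide)
      have h4 := Deg.f4_odd h3 hsim ρ hne
      rw [finrank_fin_fun, ← hq] at h4
      constructor
      · refine (Nat.pow_le_pow_iff_left (n := 2) (by norm_num)).1 ?_
        calc (q ^ 7) ^ 2 = q ^ 14 := by ring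
          _ ≤ _ := h4
      · intro h6
        exfalso
        have h7 : Odd q := by rw [hF]; exact h2.pow
        rw [h6] at h7
        exact absurd h7 (by decide)
  obtain ⟨hdeg1, hdeg2⟩ := hdeg
  rcases (by omega : q = 2 ∨ q = 3 ∨ 4 ≤ q) with hq' | hq' | hq'
  · -- `q = 2`
    have hp7 : 7 ≤ p := by
      by_contra hlt
      push Not at hlt
      have hp5 : p = 5 := by
        interval_cases p
        · rfl
        · exact absurd h.prime (by norm_num)
      apply h.coprime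
      rw [hcard, hN, hq', hp5]
      norm_num
    have hd : 22 ≤ d := by
      have h1 := lt_of_le_of_lt (hdeg2 hq') hnd
      by_contra hlt
      have h2 : d ^ 2 ≤ 21 ^ 2 := Nat.pow_le_pow_left (by omega) 2
      omega
    refine final (b := 7) (K := q ^ 53) h hp7 hk ?_
    rw [hq']
    calc 2 ^ 53 ≤ 7 ^ 20 := by norm_num
      _ ≤ 7 ^ (d - 2) := Nat.pow_le_pow_right (by norm_num) (by omega)
  · -- `q = 3`
    have hd : 47 ≤ d := by
      rw [hq'] at hdeg1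
      have h1 := lt_of_le_of_lt hdeg1 hnd
      by_contra hlt
      have h2 : d ^ 2 ≤ 46 ^ 2 := Nat.pow_le_pow_left (by omega) 2
      norm_num at h1 h2
      omega
    refine final (b := 4) (K := q ^ 53) h (by omega) hk ?_
    rw [hq']
    calc 3 ^ 53 ≤ 4 ^ 45 := by norm_num
      _ ≤ 4 ^ (d - 2) := Nat.pow_le_pow_right (by norm_num) (by omega)
  · refine final (b := 4) (K := 2 ^ 0 * q ^ 53) h (by omega) (by rw [pow_zero, one_mul]; exact hk) ?_
    refine pow_le_four (by omega) ?_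
    have hd : q ^ 7 < d ^ 2 := lt_of_le_of_lt hdeg1 hnd
    obtain ⟨m, hm⟩ : ∃ m, q = m + 4 := ⟨q - 4, by omega⟩
    have h1 : (53 * (m + 3) + 4) ^ 2 ≤ 4 * (m + 4) ^ 7 := by
      have : (0 : ℤ) ≤ 4 * (m + 4) ^ 7 - (53 * (m + 3) + 4) ^ 2 := by
        ring_nf
        positivity
      have h3 : ((53 * (m + 3) + 4) ^ 2 : ℤ) ≤ 4 * (m + 4) ^ 7 := by linarith
      exact_mod_cast h3
    rw [hm] at hd ⊢
    have h2 : 53 * (m + 3) + 4 < 2 * d := by
      refine (Nat.pow_lt_pow_iff_left (n := 2) (by norm_num)).1 ?_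
      calc (53 * (m + 3) + 4) ^ 2 ≤ 4 * (m + 4) ^ 7 := h1
        _ < 4 * d ^ 2 := by omega
        _ = _ := by ring
    omega

end Cfsg.Agent.H622.KGV.Exc
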